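import Cfsg.Agent.H66.IFU.Fin

/-!
# S5719, `PSU_3(q)`, `q` odd: two involutions (helper66)

`core` : let `B ≤ SUJ σ` contain, with every involution `g t0 g⁻¹`, all elements of order `p` of the unitary group of its
hyperplane. If `B` contains `t0` and `f t0 f⁻¹` and `(f e2) 2 ≠ 0` then `B` contains all conjugates of the
unitriangular group.
-/

set_option autoImplicit false
set_option linter.unusedSectionVars false
set_option linter.unusedVariables false

namespace Cfsg.Agent.H66.IFU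

open Cfsg Matrix Cfsg.Agent.LieRecognition.PSUThreeSylow Cfsg.Agent.H961.LinePSU3

variable {F : Type*} [Field F] {σ : F →+* F}

/-- the second basis vector -/
def e2 (F : Type*) [Field F] : Fin 3 → F := ![0, 1, 0]

theorem mulVec_inv {x : SUJ σ} {v w : Fin 3 → F} (h : x.1.1 *ᵥ v = w) : (x⁻¹).1.1 *ᵥ w = v := by
  rw [← h, Matrix.mulVec_mulVec, ← mt_mul, inv_mul_cancel, mt_one, Matrix.one_mulVec]

theorem mulVec_mt (x y : SUJ σ) (v : Fin 3 → F) : (x * y).1.1 *ᵥ v = x.1.1 *ᵥ (y.1.1 *ᵥ v) := by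
  rw [mt_mul, Matrix.mulVec_mulVec]

/-- an element fixing `e1` is unitriangular -/
theorem exists_up_of_fix (hσ : ∀ x, σ (σ x) = x) {x : SUJ σ} (h : x.1.1 *ᵥ e1 F = e1 F) :
    ∃ c b hb, x = up hσ c b hb := by
  have h0 : x.1.1 0 0 = 1 := by
    have := congrFun h 0
    simpa [e1, Matrix.mulVec, dotProduct, Fin.sum_univ_three] using this
  have h1 : x.1.1 1 0 = 0 := by
    have := congrFun h 1
    simpa [e1, Matrix.mulVec, dotProduct, Fin.sum_univ_three] using this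
  have h2 : x.1.1 2 0 = 0 := by
    have := congrFun h 2
    simpa [e1, Matrix.mulVec, dotProduct, Fin.sum_univ_three] using this
  have h21 : x.1.1 2 1 = 0 := by
    have hE := entry_of_mem_SUJ x.2 0 1
    rw [h0, h1, h2, show Jm F 0 1 = 0 by simp [Jm]] at hE
    apply σ.injective
    rw [map_zero]
    linear_combination hE
  have h22 : x.1.1 2 2 = 1 := by
    have hE := entry_of_mem_SUJ x.2 0 2
    rw [h0, h1, h2, show Jm F 0 2 = 1 by simp [Jm]] at hE
    apply σ.injective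
    rw [map_one]
    linear_combination hE
  have h11 : x.1.1 1 1 = 1 := by
    have hd : x.1.1.det = 1 := x.1.2
    rw [Matrix.det_fin_three, h0, h1, h2, h21, h22] at hd
    linear_combination hd
  have h01 : x.1.1 0 1 = -σ (x.1.1 1 2) := by
    have hE := entry_of_mem_SUJ x.2 1 2
    rw [h21, h22, h11, show Jm F 1 2 = 0 by simp [Jm], map_one] at hE
    linear_combination hE
  have hb : x.1.1 0 2 + σ (x.1.1 0 2) + x.1.1 1 2 * σ (x.1.1 1 2) = 0 := by
    have hE := entry_of_mem_SUJ x.2 2 2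
    rw [h22, show Jm F 2 2 = 0 by simp [Jm], map_one] at hE
    linear_combination hE
  refine ⟨x.1.1 1 2, x.1.1 0 2, hb, ?_⟩
  apply ext_mt
  rw [up_val]
  ext i j
  fin_cases i <;> fin_cases j <;> simp [umt, h0, h1, h2, h21, h22, h11, h01]

theorem up_fix (hσ : ∀ x, σ (σ x) = x) {c b : F} (h : b + σ b + c * σ c = 0) :
    (up hσ c b h).1.1 *ᵥ e1 F = e1 F := by
  rw [up_val]
  ext i
  fin_cases i <;> simp [umt, e1, Matrix.mulVec, dotProduct, Fin.sum_univ_three]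

theorem up_inv_eq (hσ : ∀ x, σ (σ x) = x) {c b : F} (h : b + σ b + c * σ c = 0)
    (h' : σ b + σ (σ b) + (-c) * σ (-c) = 0) : (up hσ c b h)⁻¹ = up hσ (-c) (σ b) h' := by
  rw [inv_eq_iff_mul_eq_one]
  apply ext_mt
  rw [mt_mul, mt_one]
  ext i j
  fin_cases i <;> fin_cases j <;>
    simp [up_val, umt, Matrix.mul_apply, Fin.sum_univ_three]
  linear_combination h

theorem up_inv_cond (hσ : ∀ x, σ (σ x) = x) {c b : F} (h : b + σ b + c * σ c = 0) :
    σ b + σ (σ b) + (-c) * σ (-c) = 0 := by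
  rw [hσ, map_neg]
  linear_combination h

/-- If `B` contains the unitriangular group and `wl` then it contains all conjugates. -/
theorem conj_mem (hσ : ∀ x, σ (σ x) = x) {B : Subgroup (SUJ σ)}
    (hU : ∀ x b (h : b + σ b + x * σ x = 0), up hσ x b h ∈ B) {e : F} (he : e + σ e = 0) (h0 : e ≠ 0)
    (hw : wl hσ e he h0 ∈ B) (g : SUJ σ) {x b : F} (h : b + σ b + x * σ x = 0) : g * up hσ x b h * g⁻¹ ∈ B := by
  -- the parabolic case
  have key : ∀ k : SUJ σ, k.1.1 2 0 = 0 → k * up hσ x b h * k⁻¹ ∈ B := by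
    intro k hk
    have hk1 : k.1.1 1 0 = 0 := by
      have hE := entry_of_mem_SUJ k.2 0 0
      rw [hk, show Jm F 0 0 = 0 by simp [Jm], map_zero, mul_zero, zero_mul, zero_add, add_zero, mul_eq_zero,
        map_eq_zero, or_self] at hE
      exact hE
    have hk0 : k.1.1 *ᵥ e1 F = k.1.1 0 0 • e1 F := by
      ext i
      fin_cases i <;> simp [e1, Matrix.mulVec, dotProduct, Fin.sum_univ_three, hk, hk1]
    have hkn : k.1.1 0 0 ≠ 0 := by
      intro h00
      have hd : k.1.1.det = 1 := k.1.2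
      rw [Matrix.det_fin_three, h00, hk, hk1] at hd
      simp at hd
    have hki : (k⁻¹).1.1 *ᵥ e1 F = (k.1.1 0 0)⁻¹ • e1 F := by
      apply mulVec_inv
      rw [Matrix.mulVec_smul, hk0, smul_smul, inv_mul_cancel₀ hkn, one_smul]
    obtain ⟨c, b', hb', e1'⟩ := exists_up_of_fix hσ (x := k * up hσ x b h * k⁻¹) (by
      rw [mulVec_mt, mulVec_mt, hki, Matrix.mulVec_smul, Matrix.mulVec_smul, up_fix, hk0, smul_smul,
        inv_mul_cancel₀ hkn, one_smul])
    rw [e1']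
    exact hU _ _ _
  by_cases h20 : g.1.1 2 0 = 0
  · exact key g h20
  -- the other case
  have hz : σ (g.1.1 2 0) ≠ 0 := (map_ne_zero σ).2 h20
  have hE := entry_of_mem_SUJ g.2 0 0
  rw [show Jm F 0 0 = 0 by simp [Jm]] at hE
  have hbc : g.1.1 0 0 / g.1.1 2 0 + σ (g.1.1 0 0 / g.1.1 2 0) +
      g.1.1 1 0 / g.1.1 2 0 * σ (g.1.1 1 0 / g.1.1 2 0) = 0 := by
    rw [map_div₀, map_div₀]
    field_simp
    linear_combination hE
  obtain ⟨u, hu⟩ : ∃ u, u = up hσ (g.1.1 1 0 / g.1.1 2 0) (g.1.1 0 0 / g.1.1 2 0) hbc := ⟨_, rfl⟩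
  have huB : u ∈ B := hu ▸ hU _ _ _
  have hk : (wl hσ e he h0 * u⁻¹ * g).1.1 2 0 = 0 := by
    rw [hu, up_inv_eq hσ hbc (up_inv_cond hσ hbc), mt_mul, mt_mul, wl_val, up_val]
    simp [umt, Matrix.mul_apply, Fin.sum_univ_three]
    field_simp
    linear_combination -hE
  have h3 := key _ hk
  have h4 : g * up hσ x b h * g⁻¹ = (u * (wl hσ e he h0)⁻¹) *
      (wl hσ e he h0 * u⁻¹ * g * up hσ x b h * (wl hσ e he h0 * u⁻¹ * g)⁻¹) * (u * (wl hσ e he h0)⁻¹)⁻¹ := by
    group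
  rw [h4]
  have h5 : u * (wl hσ e he h0)⁻¹ ∈ B := mul_mem huB (inv_mem hw)
  exact mul_mem (mul_mem h5 h3) (inv_mem h5)

/-- `t0` inverts the unitriangular elements modulo the centre -/
theorem comm_t0 (hσ : ∀ x, σ (σ x) = x) {c b : F} (h : b + σ b + c * σ c = 0) :
    ∃ b' h', up hσ c b h * t0 σ * (up hσ c b h)⁻¹ * t0 σ = up hσ (c + c) b' h' := by
  have h' : (b + σ b - σ c * c) + σ (b + σ b - σ c * c) + (c + c) * σ (c + c) = 0 := by
    rw [map_sub, map_add, map_mul, map_add, hσ, hσ]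
    linear_combination 2 * h
  refine ⟨b + σ b - σ c * c, h', ?_⟩
  rw [up_inv_eq hσ h (up_inv_cond hσ h)]
  apply ext_mt
  rw [mt_mul, mt_mul, mt_mul]
  ext i j
  fin_cases i <;> fin_cases j <;>
    simp [up_val, t0_val, umt, dmat, Matrix.mul_apply, Fin.sum_univ_three]
  ring

/-- With an involution `g t0 g⁻¹`, `B` contains the elements of order `p` of the unitary group of its hyperplane. -/
def Good (p : ℕ) (B : Subgroup (SUJ σ)) : Prop :=
  ∀ g : SUJ σ, g * t0 σ * g⁻¹ ∈ B → ∀ x : SUJ σ, x.1.1 *ᵥ e2 F = e2 F → x ^ p = 1 → g * x * g⁻¹ ∈ B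

theorem lo_pow (hσ : ∀ x, σ (σ x) = x) (p : ℕ) [CharP F p] {b : F} (h : b + σ b = 0) : (lo hσ b h) ^ p = 1 := by
  have key : ∀ n : ℕ, ((lo hσ b h) ^ n).1.1 = !![1, 0, 0; 0, 1, 0; n * b, 0, 1] := by
    intro n
    induction n with
    | zero =>
      rw [pow_zero, mt_one]
      ext i j
      fin_cases i <;> fin_cases j <;> simp
    | succ n ih =>
      rw [pow_succ, mt_mul, ih, lo_val]
      ext i j
      fin_cases i <;> fin_cases j <;> simp [Matrix.mul_apply, Fin.sum_univ_three]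
      ring
  apply ext_mt
  rw [key, mt_one, CharP.cast_eq_zero, zero_mul]
  ext i j
  fin_cases i <;> fin_cases j <;> simp

theorem up_pow (hσ : ∀ x, σ (σ x) = x) (p : ℕ) [CharP F p] {b : F} (h : b + σ b + 0 * σ 0 = 0) :
    (up hσ 0 b h) ^ p = 1 := by
  have key : ∀ n : ℕ, ((up hσ 0 b h) ^ n).1.1 = !![1, 0, n * b; 0, 1, 0; 0, 0, 1] := by
    intro n
    induction n with
    | zero =>
      rw [pow_zero, mt_one]
      ext i j
      fin_cases i <;> fin_cases j <;> simp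
    | succ n ih =>
      rw [pow_succ, mt_mul, ih, up_val]
      ext i j
      fin_cases i <;> fin_cases j <;> simp [umt, Matrix.mul_apply, Fin.sum_univ_three]
      ring
  apply ext_mt
  rw [key, mt_one, CharP.cast_eq_zero, zero_mul]
  ext i j
  fin_cases i <;> fin_cases j <;> simp

theorem core (hσ : ∀ x, σ (σ x) = x) {p : ℕ} [CharP F p] (h2 : (2 : F) ≠ 0) {e : F} (he : e + σ e = 0) (h0 : e ≠ 0)
    {B : Subgroup (SUJ σ)} (hB : Good p B) (ht : t0 σ ∈ B) {f : SUJ σ} (hf : f * t0 σ * f⁻¹ ∈ B)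
    (hm : f.1.1 2 1 ≠ 0) (g : SUJ σ) {x b : F} (h : b + σ b + x * σ x = 0) : g * up hσ x b h * g⁻¹ ∈ B := by
  have hm' : σ (f.1.1 2 1) ≠ 0 := (map_ne_zero σ).2 hm
  have hE := entry_of_mem_SUJ f.2 1 1
  rw [show Jm F 1 1 = 1 by simp [Jm]] at hE
  -- the frames
  have hcond : ∀ w : F, w * σ w = 1 →
      (-((f.1.1 1 1 / f.1.1 2 1 + w / f.1.1 2 1) * σ (f.1.1 1 1 / f.1.1 2 1) + σ (f.1.1 0 1 / f.1.1 2 1))) +
      σ (-((f.1.1 1 1 / f.1.1 2 1 + w / f.1.1 2 1) * σ (f.1.1 1 1 / f.1.1 2 1) + σ (f.1.1 0 1 / f.1.1 2 1))) +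
      (f.1.1 1 1 / f.1.1 2 1 + w / f.1.1 2 1) * σ (f.1.1 1 1 / f.1.1 2 1 + w / f.1.1 2 1) = 0 := by
    intro w hw
    simp only [map_neg, map_add, map_mul, map_div₀, hσ]
    field_simp
    linear_combination hw - hE
  have hy : ∀ w : F, ∀ hw : w * σ w = 1, ∀ b' (hb' : b' + σ b' = 0),
      up hσ _ _ (hcond w hw) * lo hσ b' hb' * (up hσ _ _ (hcond w hw))⁻¹ ∈ B := by
    intro w hw b' hb'
    obtain ⟨y, hy⟩ : ∃ y, y = up hσ _ _ (hcond w hw) := ⟨_, rfl⟩
    rw [← hy]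
    have hz : ((y⁻¹ * f).1.1 *ᵥ e2 F) 0 = 0 := by
      rw [hy, up_inv_eq hσ (hcond w hw) (up_inv_cond hσ (hcond w hw)), mt_mul, up_val]
      simp [umt, e2, Matrix.mulVec, dotProduct, Matrix.mul_apply, Fin.sum_univ_three, hσ]
      field_simp
      ring
    have hlo : ∀ v : Fin 3 → F, v 0 = 0 → (lo hσ b' hb').1.1 *ᵥ v = v := by
      intro v hv
      rw [lo_val]
      ext i
      fin_cases i <;> simp [Matrix.mulVec, dotProduct, Fin.sum_univ_three, hv]
    have hfix : (f⁻¹ * (y * lo hσ b' hb' * y⁻¹) * f).1.1 *ᵥ e2 F = e2 F := by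
      have h5 : f⁻¹ * (y * lo hσ b' hb' * y⁻¹) * f = (y⁻¹ * f)⁻¹ * lo hσ b' hb' * (y⁻¹ * f) := by group
      rw [h5, mulVec_mt, mulVec_mt, hlo _ hz]
      exact mulVec_inv rfl
    have hpow : (f⁻¹ * (y * lo hσ b' hb' * y⁻¹) * f) ^ p = 1 := by
      have h5 : f⁻¹ * (y * lo hσ b' hb' * y⁻¹) * f = (f⁻¹ * y) * lo hσ b' hb' * (f⁻¹ * y)⁻¹ := by group
      rw [h5, conj_pow, lo_pow, mul_one, mul_inv_cancel]
    have h6 := hB f hf _ hfix hpow
    have h7 : f * (f⁻¹ * (y * lo hσ b' hb' * y⁻¹) * f) * f⁻¹ = y * lo hσ b' hb' * y⁻¹ := by group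
    rwa [h7] at h6
  have hZ : ∀ b' (hb' : b' + σ b' + 0 * σ 0 = 0), up hσ 0 b' hb' ∈ B := by
    intro b' hb'
    have h5 := hB 1 (by rw [one_mul, inv_one, mul_one]; exact ht) (up hσ 0 b' hb') (by
      rw [up_val]
      ext i
      fin_cases i <;> simp [umt, e2, Matrix.mulVec, dotProduct, Fin.sum_univ_three]) (up_pow hσ p hb')
    rwa [one_mul, inv_one, mul_one] at h5
  -- the centre of the unitriangular group
  have hcen : ∀ (c b₁ : F) (h₁ : b₁ + σ b₁ + c * σ c = 0) (b' : F) (hb' : b' + σ b' + 0 * σ 0 = 0),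
      up hσ c b₁ h₁ * up hσ 0 b' hb' * (up hσ c b₁ h₁)⁻¹ = up hσ 0 b' hb' := by
    intro c b₁ h₁ b' hb'
    rw [mul_inv_eq_iff_eq_mul]
    apply ext_mt
    rw [mt_mul, mt_mul]
    ext i j
    fin_cases i <;> fin_cases j <;> simp [up_val, umt, Matrix.mul_apply, Fin.sum_univ_three]
    ring
  -- the new frame
  have h11 : (1 : F) * σ 1 = 1 := by rw [map_one, mul_one]
  obtain ⟨y, hy1⟩ : ∃ y, y = up hσ _ _ (hcond 1 h11) := ⟨_, rfl⟩
  set B' := B.comap (MulAut.conj y).toMonoidHom with hB'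
  have hmem : ∀ k, k ∈ B' ↔ y * k * y⁻¹ ∈ B := fun k => Iff.rfl
  have k1 : ∀ b (h : b + σ b = 0), up hσ 0 b (by rw [map_zero, mul_zero, add_zero]; exact h) ∈ B' := by
    intro b' hb'
    rw [hmem, hy1, hcen]
    exact hZ _ _
  have k3 : ∀ b (h : b + σ b = 0), lo hσ b h ∈ B' := by
    intro b' hb'
    rw [hmem, hy1]
    exact hy 1 h11 b' hb'
  have kt : t0 σ ∈ B' := t0_mem hσ k1 k3 he h0
  have hDb : ∀ w : F, w * σ w = 1 → 2 * ((w - 1) / f.1.1 2 1) ∈ Db hσ B' := by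
    intro w hw
    obtain ⟨z, hz⟩ : ∃ z, z = up hσ _ _ (hcond w hw) := ⟨_, rfl⟩
    have l1 : z * t0 σ * z⁻¹ ∈ B := by
      have l2 := t0_mem (B := B.comap (MulAut.conj z).toMonoidHom) hσ (by
        intro b' hb'
        change z * _ * z⁻¹ ∈ B
        rw [hz, hcen]
        exact hZ _ _) (by
        intro b' hb'
        change z * _ * z⁻¹ ∈ B
        rw [hz]
        exact hy w hw b' hb') he h0
      exact l2
    have l3 : (y⁻¹ * z) * t0 σ * (y⁻¹ * z)⁻¹ * t0 σ ∈ B' := by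
      refine mul_mem ?_ kt
      rw [hmem]
      have l4 : y * (y⁻¹ * z * t0 σ * (y⁻¹ * z)⁻¹) * y⁻¹ = z * t0 σ * z⁻¹ := by group
      rwa [l4]
    obtain ⟨c', b', hb', l5⟩ : ∃ c' b' hb', y⁻¹ * z = up hσ c' b' hb' ∧ c' = (w - 1) / f.1.1 2 1 := by
      rw [hy1, hz, up_inv_eq hσ (hcond 1 h11) (up_inv_cond hσ (hcond 1 h11))]
      obtain ⟨b'', h'', l6⟩ := exists_up_mul hσ (up_inv_cond hσ (hcond 1 h11)) (hcond w hw)
      refine ⟨_, b'', h'', l6, ?_⟩
      field_simp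
      ring
    obtain ⟨l5, rfl⟩ := l5
    obtain ⟨b'', h'', l6⟩ := comm_t0 hσ hb'
    rw [l5, l6] at l3
    have l7 : 2 * ((w - 1) / f.1.1 2 1) = (w - 1) / f.1.1 2 1 + (w - 1) / f.1.1 2 1 := by ring
    rw [mem_Db, l7]
    exact ⟨_, _, l3⟩
  -- an element of norm one outside of the fixed field
  have hse : σ e = -e := by linear_combination he
  have he1 : 1 - e ≠ 0 := by
    intro h5
    have h6 : e = 1 := by linear_combination -h5
    rw [h6, map_one] at hse
    apply h2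
    linear_combination hse
  have he2 : 1 + e ≠ 0 := by
    intro h5
    have h6 := congrArg σ h5
    rw [map_add, map_one, map_zero, hse] at h6
    exact he1 (by linear_combination h6)
  obtain ⟨w, hw⟩ : ∃ w, w = (1 + e) / (1 - e) := ⟨_, rfl⟩
  have hsw : σ w = (1 - e) / (1 + e) := by
    rw [hw, map_div₀, map_add, map_sub, map_one, hse, sub_neg_eq_add, ← sub_eq_add_neg]
  have hw1 : w * σ w = 1 := by
    rw [hsw, hw]
    field_simp
  have hwn : σ w ≠ w := by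
    rw [hsw, hw]
    intro h5
    rw [div_eq_div_iff he2 he1] at h5
    have h6 : (2 : F) * 2 * e = 0 := by linear_combination -h5
    rcases mul_eq_zero.1 h6 with h7 | h7
    · exact h2 (mul_self_eq_zero.1 h7)
    · exact h0 h7
  have d1 := hDb (-1) (by rw [map_neg, map_one]; ring)
  have d2 := hDb w hw1
  have hU := up_mem hσ k1 k3 he h0 (c := 2 * ((-1 - 1) / f.1.1 2 1)) (w := (1 - w) / 2) (by
      refine mul_ne_zero h2 (div_ne_zero ?_ hm)
      intro h5
      apply h2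
      linear_combination -h5) (by
      rw [map_div₀, map_sub, map_one, map_ofNat]
      intro h5
      apply hwn
      field_simp at h5
      linear_combination -h5) d1 (by
      convert d2 using 1
      field_simp
      ring)
  have hfin := conj_mem hσ hU he h0 (wl_mem hσ k1 k3 he h0) (y⁻¹ * g) h
  rw [hmem] at hfin
  have h8 : y * (y⁻¹ * g * up hσ x b h * (y⁻¹ * g)⁻¹) * y⁻¹ = g * up hσ x b h * g⁻¹ := by group
  rwa [h8] at hfin

end Cfsg.Agent.H66.IFU
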