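import Cfsg.Agent.H961.LinePSU3

/-!
# S5719, `PSU_3(q)`, `q` odd: generation (helper66)

Elements of `SUJ σ` (antidiagonal form, `σ` an involution of `F`): `up c b` (upper unitriangular), `lo b` (lower
long root element), `hd s` (torus), `t0 = diag (-1, 1, -1)`.
`conj_mem` : a subgroup containing the two opposite long root groups and elements `up (c (ω - 1)) _`, `ω` of norm one,
contains all conjugates of the unitriangular group.
-/

set_option autoImplicit false
set_option linter.unusedSectionVars false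
set_option linter.unusedVariables false

namespace Cfsg.Agent.H66.IFU

open Cfsg Matrix Cfsg.Agent.LieRecognition.PSUThreeSylow Cfsg.Agent.H961.LinePSU3

variable {F : Type*} [Field F] {σ : F →+* F}

theorem ext_mt {g h : SUJ σ} (e : g.1.1 = h.1.1) : g = h := Subtype.ext (Subtype.ext e)

theorem mt_mul (g h : SUJ σ) : (g * h).1.1 = g.1.1 * h.1.1 := rfl

theorem mt_one : (1 : SUJ σ).1.1 = 1 := rfl

/-- upper unitriangular element -/
def up (hσ : ∀ x, σ (σ x) = x) (c b : F) (h : b + σ b + c * σ c = 0) : SUJ σ :=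
  ⟨⟨umt (-σ c) b c, det_umt _ _ _⟩, umt_form hσ h⟩

theorem up_val (hσ : ∀ x, σ (σ x) = x) {c b : F} (h : b + σ b + c * σ c = 0) :
    (up hσ c b h).1.1 = umt (-σ c) b c := rfl

theorem up_mul (hσ : ∀ x, σ (σ x) = x) {c b c' b' : F} (h : b + σ b + c * σ c = 0) (h' : b' + σ b' + c' * σ c' = 0)
    (h'' : (b + b' - σ c * c') + σ (b + b' - σ c * c') + (c + c') * σ (c + c') = 0) :
    up hσ c b h * up hσ c' b' h' = up hσ (c + c') (b + b' - σ c * c') h'' := by
  apply ext_mt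
  rw [mt_mul]
  ext i j
  fin_cases i <;> fin_cases j <;>
    simp [up_val, umt, Matrix.mul_apply, Fin.sum_univ_three] <;> ring

theorem up_cond (hσ : ∀ x, σ (σ x) = x) {c b c' b' : F} (h : b + σ b + c * σ c = 0) (h' : b' + σ b' + c' * σ c' = 0) :
    (b + b' - σ c * c') + σ (b + b' - σ c * c') + (c + c') * σ (c + c') = 0 := by
  rw [map_sub, map_add, map_mul, map_add, hσ]
  linear_combination h + h'

theorem exists_up_mul (hσ : ∀ x, σ (σ x) = x) {c b c' b' : F} (h : b + σ b + c * σ c = 0)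
    (h' : b' + σ b' + c' * σ c' = 0) :
    ∃ b'' h'', up hσ c b h * up hσ c' b' h' = up hσ (c + c') b'' h'' :=
  ⟨_, _, up_mul hσ h h' (up_cond hσ h h')⟩

theorem up_inv (hσ : ∀ x, σ (σ x) = x) {c b : F} (h : b + σ b + c * σ c = 0) :
    ∃ b' h', (up hσ c b h)⁻¹ = up hσ (-c) b' h' := by
  have h' : σ b + σ (σ b) + (-c) * σ (-c) = 0 := by
    rw [hσ, map_neg]
    linear_combination h
  refine ⟨σ b, h', ?_⟩
  rw [inv_eq_iff_mul_eq_one]
  apply ext_mt
  rw [mt_mul, mt_one]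
  ext i j
  fin_cases i <;> fin_cases j <;>
    simp [up_val, umt, Matrix.mul_apply, Fin.sum_univ_three]
  linear_combination h

/-- lower long root element -/
def lo (hσ : ∀ x, σ (σ x) = x) (b : F) (h : b + σ b = 0) : SUJ σ :=
  ⟨⟨!![1, 0, 0; 0, 1, 0; b, 0, 1], by rw [Matrix.det_fin_three]; simp⟩, by
    change (!![1, 0, 0; 0, 1, 0; b, 0, 1] : Matrix (Fin 3) (Fin 3) F)ᵀ * Jm F *
      (!![1, 0, 0; 0, 1, 0; b, 0, 1] : Matrix (Fin 3) (Fin 3) F).map σ = Jm F
    ext i j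
    fin_cases i <;> fin_cases j <;> simp [Jm, Matrix.mul_apply, Fin.sum_univ_three]
    linear_combination h⟩

theorem lo_val (hσ : ∀ x, σ (σ x) = x) {b : F} (h : b + σ b = 0) : (lo hσ b h).1.1 = !![1, 0, 0; 0, 1, 0; b, 0, 1] := rfl

/-- torus element -/
def hd (s : F) (hs : σ s = s) (h0 : s ≠ 0) : SUJ σ :=
  ⟨⟨dmat s 1 s⁻¹, by rw [det_dmat]; field_simp⟩, dmat_form (by rw [map_inv₀, hs, mul_inv_cancel₀ h0])
    (by rw [map_one, mul_one]) (by rw [hs, inv_mul_cancel₀ h0])⟩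

theorem hd_val {s : F} (hs : σ s = s) (h0 : s ≠ 0) : (hd s hs h0 : SUJ σ).1.1 = dmat s 1 s⁻¹ := rfl

/-- the involution -/
def t0 (σ : F →+* F) : SUJ σ :=
  ⟨⟨dmat (-1) 1 (-1), by rw [det_dmat]; norm_num⟩, dmat_form (by simp) (by simp) (by simp)⟩

theorem t0_val : (t0 σ).1.1 = dmat (-1) 1 (-1) := rfl

/-- Weyl element -/
def wl (hσ : ∀ x, σ (σ x) = x) (e : F) (he : e + σ e = 0) (h0 : e ≠ 0) : SUJ σ :=
  ⟨⟨!![0, 0, e; 0, 1, 0; -e⁻¹, 0, 0], by rw [Matrix.det_fin_three]; simp; field_simp⟩, by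
    have h1 : σ e = -e := by linear_combination he
    change (!![0, 0, e; 0, 1, 0; -e⁻¹, 0, 0] : Matrix (Fin 3) (Fin 3) F)ᵀ * Jm F *
      (!![0, 0, e; 0, 1, 0; -e⁻¹, 0, 0] : Matrix (Fin 3) (Fin 3) F).map σ = Jm F
    ext i j
    fin_cases i <;> fin_cases j <;> simp [Jm, Matrix.mul_apply, Fin.sum_univ_three, h1, h0]⟩

theorem wl_val (hσ : ∀ x, σ (σ x) = x) {e : F} (he : e + σ e = 0) (h0 : e ≠ 0) :
    (wl hσ e he h0).1.1 = !![0, 0, e; 0, 1, 0; -e⁻¹, 0, 0] := rfl

section gen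

variable (hσ : ∀ x, σ (σ x) = x) {B : Subgroup (SUJ σ)}
  (h1 : ∀ b (h : b + σ b = 0), up hσ 0 b (by rw [map_zero, mul_zero, add_zero]; exact h) ∈ B)
  (h3 : ∀ b (h : b + σ b = 0), lo hσ b h ∈ B)

include h1 h3

theorem wl_mem {e : F} (he : e + σ e = 0) (h0 : e ≠ 0) : wl hσ e he h0 ∈ B := by
  have he' : -e⁻¹ + σ (-e⁻¹) = 0 := by
    have h2 : σ e = -e := by linear_combination he
    rw [map_neg, map_inv₀, h2, inv_neg]
    ring
  have h2 : wl hσ e he h0 = up hσ 0 e (by rw [map_zero, mul_zero, add_zero]; exact he) * lo hσ (-e⁻¹) he' *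
      up hσ 0 e (by rw [map_zero, mul_zero, add_zero]; exact he) := by
    apply ext_mt
    rw [mt_mul, mt_mul]
    ext i j
    fin_cases i <;> fin_cases j <;>
      simp [up_val, lo_val, wl_val, umt, Matrix.mul_apply, Fin.sum_univ_three, h0]
  rw [h2]
  exact mul_mem (mul_mem (h1 e he) (h3 _ he')) (h1 e he)

theorem hd_mem {e : F} (he : e + σ e = 0) (h0 : e ≠ 0) {s : F} (hs : σ s = s) (hs0 : s ≠ 0) : hd s hs hs0 ∈ B := by
  have he' : s * e + σ (s * e) = 0 := by
    rw [map_mul, hs]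
    linear_combination s * he
  have h2 : hd s hs hs0 * wl hσ e he h0 = wl hσ (s * e) he' (mul_ne_zero hs0 h0) := by
    apply ext_mt
    rw [mt_mul]
    ext i j
    fin_cases i <;> fin_cases j <;>
      simp [hd_val, wl_val, dmat, Matrix.mul_apply, Fin.sum_univ_three]
    rw [mul_comm]
  have h4 : hd s hs hs0 = wl hσ (s * e) he' (mul_ne_zero hs0 h0) * (wl hσ e he h0)⁻¹ := by
    rw [← h2]
    group
  rw [h4]
  exact mul_mem (wl_mem hσ h1 h3 _ _) (inv_mem (wl_mem hσ h1 h3 _ _))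

theorem t0_mem {e : F} (he : e + σ e = 0) (h0 : e ≠ 0) : t0 σ ∈ B := by
  have h2 : t0 σ = hd (-1) (by simp) (by simp) := by
    apply ext_mt
    rw [t0_val, hd_val]
    norm_num
  rw [h2]
  exact hd_mem hσ h1 h3 he h0 _ _

omit h1 h3 in
theorem hd_conj {s : F} (hs : σ s = s) (hs0 : s ≠ 0) {c b : F} (h : b + σ b + c * σ c = 0) :
    ∃ b' h', hd s hs hs0 * up hσ c b h * (hd s hs hs0)⁻¹ = up hσ (s * c) b' h' := by
  have h' : s ^ 2 * b + σ (s ^ 2 * b) + s * c * σ (s * c) = 0 := by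
    rw [map_mul, map_mul, map_pow, hs]
    linear_combination s ^ 2 * h
  refine ⟨s ^ 2 * b, h', ?_⟩
  rw [mul_inv_eq_iff_eq_mul]
  apply ext_mt
  rw [mt_mul, mt_mul]
  ext i j
  fin_cases i <;> fin_cases j <;>
    simp [hd_val, up_val, umt, dmat, Matrix.mul_apply, Fin.sum_univ_three, hs]
  all_goals field_simp

omit h1 h3 in
/-- the set of coordinates of the unitriangular elements of `B` -/
def Db (hσ : ∀ x, σ (σ x) = x) (B : Subgroup (SUJ σ)) : AddSubgroup F where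
  carrier := {c | ∃ b h, up hσ c b h ∈ B}
  zero_mem' := ⟨0, by simp, by
    have : up hσ 0 0 (by simp) = 1 := by
      apply ext_mt
      ext i j
      fin_cases i <;> fin_cases j <;> simp [up_val, umt]
    rw [this]
    exact one_mem _⟩
  add_mem' := by
    rintro c c' ⟨b, h, hB⟩ ⟨b', h', hB'⟩
    obtain ⟨b'', h'', e⟩ := exists_up_mul hσ h h'
    exact ⟨b'', h'', e ▸ mul_mem hB hB'⟩
  neg_mem' := by
    rintro c ⟨b, h, hB⟩
    obtain ⟨b', h', e⟩ := up_inv hσ h
    exact ⟨b', h', e ▸ inv_mem hB⟩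

omit h1 h3 in
theorem mem_Db {c : F} : c ∈ Db hσ B ↔ ∃ b h, up hσ c b h ∈ B := Iff.rfl

/-- the scalars of the fixed field act -/
theorem smul_mem_Db {e : F} (he : e + σ e = 0) (h0 : e ≠ 0) {s : F} (hs : σ s = s) {c : F} (hc : c ∈ Db hσ B) :
    s * c ∈ Db hσ B := by
  rcases eq_or_ne s 0 with rfl | hs0
  · rw [zero_mul]
    exact zero_mem _
  obtain ⟨b, h, hB⟩ := hc
  obtain ⟨b', h', e1⟩ := hd_conj hσ hs hs0 h
  have hm := hd_mem hσ h1 h3 he h0 hs hs0
  exact ⟨b', h', e1 ▸ mul_mem (mul_mem hm hB) (inv_mem hm)⟩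

/-- all unitriangular elements -/
theorem up_mem {e : F} (he : e + σ e = 0) (h0 : e ≠ 0) {c w : F} (hc0 : c ≠ 0) (hw : σ w ≠ w)
    (hc : c ∈ Db hσ B) (hcw : c * w ∈ Db hσ B) (x b : F) (h : b + σ b + x * σ x = 0) : up hσ x b h ∈ B := by
  have hw' : w - σ w ≠ 0 := fun h => hw (by linear_combination -h)
  -- every element of the field
  have hall : ∀ y : F, y ∈ Db hσ B := by
    intro y
    have hβ : σ ((y / c - σ (y / c)) / (w - σ w)) = (y / c - σ (y / c)) / (w - σ w) := by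
      rw [map_div₀, map_sub, map_sub, hσ, hσ, ← neg_sub, ← neg_sub w, neg_div_neg_eq]
    have hα : σ (y / c - (y / c - σ (y / c)) / (w - σ w) * w) = y / c - (y / c - σ (y / c)) / (w - σ w) * w := by
      rw [map_sub, map_mul, hβ]
      field_simp
      ring
    have h5 := (Db hσ B).add_mem (smul_mem_Db hσ h1 h3 he h0 hα hc) (smul_mem_Db hσ h1 h3 he h0 hβ hcw)
    have h6 : (y / c - (y / c - σ (y / c)) / (w - σ w) * w) * c + (y / c - σ (y / c)) / (w - σ w) * (c * w) = y := by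
      field_simp
      ring
    rwa [h6] at h5
  obtain ⟨b', h', hB⟩ := hall x
  -- the difference is in the centre
  have hd : (b - b') + σ (b - b') = 0 := by
    rw [map_sub]
    linear_combination h - h'
  have e1 : up hσ x b h = up hσ 0 (b - b') (by rw [map_zero, mul_zero, add_zero]; exact hd) * up hσ x b' h' := by
    apply ext_mt
    rw [mt_mul]
    ext i j
    fin_cases i <;> fin_cases j <;>
      simp [up_val, umt, Matrix.mul_apply, Fin.sum_univ_three]
  rw [e1]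
  exact mul_mem (h1 _ hd) hB

end gen

end Cfsg.Agent.H66.IFU
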