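import Cfsg.Agent.H66.IFU.Core

/-!
# S5719, `PSU_3(q)`, `q` odd: involutions of `SUJ σ` are conjugate (helper66)
-/

set_option autoImplicit false
set_option linter.unusedSectionVars false
set_option linter.unusedVariables false

namespace Cfsg.Agent.H66.IFU

open Cfsg Matrix Cfsg.Agent.LieRecognition.PSUThreeSylow Cfsg.Agent.H961.LinePSU3

variable {F : Type*} [Field F] {σ : F →+* F}

/-- the entries of the inverse -/
theorem inv_entry (x : SUJ σ) : (x⁻¹).1.1 = x.1.1.adjugate := by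
  rw [Subgroup.coe_inv, Matrix.SpecialLinearGroup.coe_inv]

/-- involutions fixing an isotropic point -/
theorem inv_par (hσ : ∀ x, σ (σ x) = x) (h2 : (2 : F) ≠ 0) {t : SUJ σ} (ht : t * t = 1) (h1 : t ≠ 1)
    (h20 : t.1.1 2 0 = 0) : ∃ g, t = g * t0 σ * g⁻¹ := by
  have h10 : t.1.1 1 0 = 0 := by
    have hE := entry_of_mem_SUJ t.2 0 0
    rw [h20, show Jm F 0 0 = 0 by simp [Jm], map_zero, mul_zero, zero_mul, zero_add, add_zero, mul_eq_zero,
      map_eq_zero, or_self] at hE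
    exact hE
  have hd : t.1.1.det = 1 := t.1.2
  have htt : t.1.1 * t.1.1 = 1 := by rw [← mt_mul, ht, mt_one]
  have e00 := congrFun (congrFun htt 0) 0
  have e02 := congrFun (congrFun htt 0) 2
  simp only [Matrix.mul_apply, Fin.sum_univ_three, h20, h10, mul_zero, add_zero, Matrix.one_apply_eq] at e00 e02
  rw [Matrix.one_apply_ne (by decide)] at e02
  have ha0 : t.1.1 0 0 ≠ 0 := by
    intro h
    rw [h, mul_zero] at e00
    exact zero_ne_one e00
  have hsa : σ (t.1.1 0 0) = t.1.1 0 0 := by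
    rcases mul_self_eq_one_iff.1 e00 with h | h
    · rw [h, map_one]
    · rw [h, map_neg, map_one]
  have h21 : t.1.1 2 1 = 0 := by
    have hE := entry_of_mem_SUJ t.2 0 1
    rw [h20, h10, show Jm F 0 1 = 0 by simp [Jm], zero_mul, zero_mul, add_zero, add_zero, mul_eq_zero, map_eq_zero] at hE
    exact hE.resolve_left ha0
  have h22 : t.1.1 2 2 = t.1.1 0 0 := by
    have hE := entry_of_mem_SUJ t.2 0 2
    rw [h20, h10, show Jm F 0 2 = 1 by simp [Jm], zero_mul, zero_mul, add_zero, add_zero] at hE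
    have h3 := congrArg σ hE
    rw [map_mul, hσ, map_one, hsa] at h3
    have h4 : t.1.1 0 0 * t.1.1 2 2 = t.1.1 0 0 * t.1.1 0 0 := by rw [h3, e00]
    exact mul_left_cancel₀ ha0 h4
  have h11 : t.1.1 1 1 = 1 := by
    rw [Matrix.det_fin_three, h20, h10, h21, h22] at hd
    linear_combination hd - t.1.1 1 1 * e00
  rw [h22] at e02
  have h12 := entry_of_mem_SUJ t.2 1 2
  have h22' := entry_of_mem_SUJ t.2 2 2
  rw [h21, h22, h11, hsa, show Jm F 1 2 = 0 by simp [Jm], zero_mul, add_zero, one_mul] at h12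
  rw [h22, hsa, show Jm F 2 2 = 0 by simp [Jm]] at h22'
  rcases mul_self_eq_one_iff.1 e00 with hα | hα
  · -- unipotent
    exfalso
    apply h1
    have htt' := congrFun (congrFun htt 1) 2
    simp only [Matrix.mul_apply, Fin.sum_univ_three, h10, h11, h22, hα] at htt'
    rw [Matrix.one_apply_ne (by decide)] at htt'
    rw [hα] at h12 h22' e02
    have hc : t.1.1 1 2 = 0 := by
      have : (2 : F) * t.1.1 1 2 = 0 := by linear_combination htt'
      exact (mul_eq_zero.1 this).resolve_left h2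
    have ha : t.1.1 0 1 = 0 := by
      rw [hc, map_zero] at h12
      linear_combination h12
    have hb : t.1.1 0 2 = 0 := by
      have : (2 : F) * t.1.1 0 2 = 0 := by rw [ha, hc] at e02; linear_combination e02
      exact (mul_eq_zero.1 this).resolve_left h2
    apply ext_mt
    rw [mt_one]
    ext i j
    fin_cases i <;> fin_cases j <;> simp [h10, h20, h11, h21, h22, hα, hc, ha, hb]
  · -- conjugate of `t0`
    rw [hα] at h12 h22' e02
    have ha : t.1.1 0 1 = σ (t.1.1 1 2) := by linear_combination -h12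
    have hb : t.1.1 0 2 = σ (t.1.1 1 2) * t.1.1 1 2 / 2 := by
      rw [ha] at e02
      field_simp
      linear_combination -e02
    have h8 : (8 : F) ≠ 0 := by
      have : (8 : F) = 2 * 2 * 2 := by norm_num
      rw [this]
      exact mul_ne_zero (mul_ne_zero h2 h2) h2
    have hs2 : σ 2 = 2 := map_ofNat σ 2
    have hs8 : σ 8 = 8 := map_ofNat σ 8
    have hc : (-(σ (t.1.1 1 2) * t.1.1 1 2 / 8)) + σ (-(σ (t.1.1 1 2) * t.1.1 1 2 / 8)) +
        (-(t.1.1 1 2 / 2)) * σ (-(t.1.1 1 2 / 2)) = 0 := by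
      rw [map_neg, map_neg, map_div₀, map_div₀, map_mul, hσ, hs2, hs8]
      field_simp
      ring
    refine ⟨up hσ _ _ hc, ?_⟩
    rw [eq_mul_inv_iff_mul_eq]
    apply ext_mt
    rw [mt_mul, mt_mul]
    ext i j
    fin_cases i <;> fin_cases j <;>
      simp [up_val, t0_val, umt, dmat, Matrix.mul_apply, Fin.sum_univ_three, h10, h20, h11, h21, h22, hα, ha, hb, hs2]
    all_goals field_simp
    all_goals ring

/-- **All involutions are conjugate.** -/
theorem inv_conj (hσ : ∀ x, σ (σ x) = x) (h2 : (2 : F) ≠ 0) {e : F} (he : e + σ e = 0) (h0 : e ≠ 0)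
    (hn : ∀ a : F, σ a = a → a ≠ 0 → ∃ y, y * σ y = a) {t : SUJ σ} (ht : t * t = 1) (h1 : t ≠ 1) :
    ∃ g, t = g * t0 σ * g⁻¹ := by
  by_cases h20 : t.1.1 2 0 = 0
  · exact inv_par hσ h2 ht h1 h20
  have htt : t.1.1 * t.1.1 = 1 := by rw [← mt_mul, ht, mt_one]
  have hti : t⁻¹ = t := inv_eq_of_mul_eq_one_left ht
  have hadj : t.1.1.adjugate = t.1.1 := by rw [← inv_entry, hti]
  have a20 : t.1.1 1 0 * t.1.1 2 1 - t.1.1 1 1 * t.1.1 2 0 = t.1.1 2 0 := by
    have h3 := congrFun (congrFun hadj 2) 0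
    rw [Matrix.adjugate_fin_three] at h3
    simpa using h3
  have a21 : -(t.1.1 0 0 * t.1.1 2 1 - t.1.1 0 1 * t.1.1 2 0) = t.1.1 2 1 := by
    have h3 := congrFun (congrFun hadj 2) 1
    rw [Matrix.adjugate_fin_three] at h3
    simp at h3
    linear_combination h3
  -- the form
  have hE := entry_of_mem_SUJ t.2 0 0
  rw [show Jm F 0 0 = 0 by simp [Jm]] at hE
  have hfm : t.1.1ᵀ * Jm F = Jm F * t.1.1.map σ := by
    have h3 : t.1.1ᵀ * Jm F * t.1.1.map σ = Jm F := t.2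
    have h4 : t.1.1.map σ * t.1.1.map σ = 1 := by
      rw [← Matrix.map_mul, htt]
      exact Matrix.map_one _ (map_zero σ) (map_one σ)
    calc t.1.1ᵀ * Jm F = t.1.1ᵀ * Jm F * (t.1.1.map σ * t.1.1.map σ) := by rw [h4, mul_one]
      _ = t.1.1ᵀ * Jm F * t.1.1.map σ * t.1.1.map σ := by rw [mul_assoc, mul_assoc, mul_assoc]
      _ = Jm F * t.1.1.map σ := by rw [h3]
  have s20 : σ (t.1.1 2 0) = t.1.1 2 0 := by
    have h3 := congrFun (congrFun hfm 0) 0
    simp [Jm, Matrix.mul_apply, Fin.sum_univ_three] at h3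
    exact h3.symm
  have s21 : t.1.1 2 1 = σ (t.1.1 1 0) := by
    have h3 := congrFun (congrFun hfm 1) 0
    simp [Jm, Matrix.mul_apply, Fin.sum_univ_three] at h3
    exact h3
  rw [s21] at a20 a21
  rw [s20] at hE
  have hd0 := congrFun (congrFun htt 0) 0
  have hd1 := congrFun (congrFun htt 1) 0
  have hd2 := congrFun (congrFun htt 2) 0
  simp only [Matrix.mul_apply, Fin.sum_univ_three, Matrix.one_apply_eq] at hd0 hd1 hd2
  rw [Matrix.one_apply_ne (by decide)] at hd1 hd2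
  rw [s21] at hd2
  obtain ⟨y, hy⟩ := hn (t.1.1 2 0 / 2) (by rw [map_div₀, s20, map_ofNat]) (div_ne_zero h20 h2)
  have hy0 : y ≠ 0 := by
    rintro rfl
    rw [zero_mul] at hy
    exact div_ne_zero h20 h2 hy.symm
  obtain ⟨x0, hx0⟩ : ∃ x0, t.1.1 0 0 = x0 := ⟨_, rfl⟩
  obtain ⟨x1, hx1⟩ : ∃ x1, t.1.1 1 0 = x1 := ⟨_, rfl⟩
  obtain ⟨x2, hx2⟩ : ∃ x2, t.1.1 2 0 = x2 := ⟨_, rfl⟩
  simp only [hx0, hx1, hx2] at a20 a21 hE s20 s21 hd0 hd1 hd2 hy h20
  have hy' : 2 * (y * σ y) = x2 := by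
    rw [hy]
    field_simp
  obtain ⟨c, hc⟩ : ∃ c : Fin 3 → F, c = ![-σ x1 + y * (1 - x0), x2 - y * x1, -(y * x2)] := ⟨_, rfl⟩
  have htc : t.1.1 *ᵥ c = -c := by
    rw [hc]
    ext i
    fin_cases i
    · simp [Matrix.mulVec, dotProduct, Fin.sum_univ_three]
      rw [hx0]
      linear_combination a21 - y * hd0
    · simp [Matrix.mulVec, dotProduct, Fin.sum_univ_three]
      rw [hx1]
      linear_combination -a20 - y * hd1
    · simp [Matrix.mulVec, dotProduct, Fin.sum_univ_three]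
      rw [hx2, s21]
      linear_combination - y * hd2
  have hc2 : y * x2 ≠ 0 := mul_ne_zero hy0 h20
  have hsc2 : σ y * x2 ≠ 0 := mul_ne_zero ((map_ne_zero σ).2 hy0) h20
  have hiso : (-σ x1 + y * (1 - x0)) / (-(y * x2)) + σ ((-σ x1 + y * (1 - x0)) / (-(y * x2))) +
      (x2 - y * x1) / (-(y * x2)) * σ ((x2 - y * x1) / (-(y * x2))) = 0 := by
    simp only [map_div₀, map_neg, map_add, map_mul, map_sub, map_one, hσ, s20]
    have hsy : σ y ≠ 0 := (map_ne_zero σ).2 hy0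
    field_simp
    linear_combination (y * σ y) * hE - x2 * hy'
  obtain ⟨k, hk⟩ : ∃ k, k = up hσ _ _ hiso * wl hσ e he h0 := ⟨_, rfl⟩
  have hke : k.1.1 *ᵥ e1 F = (e * (y * x2))⁻¹ • c := by
    rw [hk, mulVec_mt, up_val, wl_val, hc]
    ext i
    fin_cases i <;> simp [umt, e1, Matrix.mulVec, dotProduct, Fin.sum_univ_three]
    all_goals field_simp
  have ht' : (k⁻¹ * t * k).1.1 *ᵥ e1 F = -e1 F := by
    rw [mulVec_mt, mulVec_mt, hke, Matrix.mulVec_smul, htc, smul_neg, Matrix.mulVec_neg, ← hke]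
    rw [mulVec_inv rfl]
  obtain ⟨g, hg⟩ := inv_par hσ h2 (t := k⁻¹ * t * k) (by
    have h5 : k⁻¹ * t * k * (k⁻¹ * t * k) = k⁻¹ * (t * t) * k := by group
    rw [h5, ht, mul_one, inv_mul_cancel]) (by
    intro h5
    apply h1
    have h6 : t = k * (k⁻¹ * t * k) * k⁻¹ := by group
    rw [h6, h5, mul_one, mul_inv_cancel]) (by
    have h5 := congrFun ht' 2
    simpa [e1, Matrix.mulVec, dotProduct, Fin.sum_univ_three] using h5)
  refine ⟨k * g, ?_⟩
  have h6 : t = k * (k⁻¹ * t * k) * k⁻¹ := by group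
  rw [h6, hg]
  group

end Cfsg.Agent.H66.IFU
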