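import Cfsg.Agent.H66.IFU.Inv
import Cfsg.Agent.LieClassical.HermBasic
import Mathlib.LinearAlgebra.Projectivization.Cardinality

/-!
# S5719, `PSU_3(q)`, `q` odd: the subgroup `SL_2(q)` and the class of the involution (helper66)
-/

set_option autoImplicit false
set_option linter.unusedSectionVars false
set_option linter.unusedVariables false

namespace Cfsg.Agent.H66.IFU

open Cfsg Matrix Cfsg.Agent.LieRecognition.PSUThreeSylow Cfsg.Agent.H961.LinePSU3
open scoped LinearAlgebra.Projectivization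

variable {F : Type*} [Field F] {σ : F →+* F}

/-- the fixed field -/
def kf (σ : F →+* F) : Subfield F := σ.eqLocusField (RingHom.id F)

theorem mem_kf {x : F} : x ∈ kf σ ↔ σ x = x := Iff.rfl

theorem card_kf (hσ : ∀ x, σ (σ x) = x) {w : F} (hw : σ w ≠ w) : Nat.card F = Nat.card (kf σ) ^ 2 := by
  have hw' : w - σ w ≠ 0 := fun h => hw (by linear_combination -h)
  rw [pow_two, ← Nat.card_prod]
  have hβ : ∀ y : F, σ ((y - σ y) / (w - σ w)) = (y - σ y) / (w - σ w) := by
    intro y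
    rw [map_div₀, map_sub, map_sub, hσ, hσ, ← neg_sub, ← neg_sub w, neg_div_neg_eq]
  have hα : ∀ y : F, σ (y - (y - σ y) / (w - σ w) * w) = y - (y - σ y) / (w - σ w) * w := by
    intro y
    rw [map_sub, map_mul, hβ]
    field_simp
    ring
  refine Nat.card_congr
    { toFun := fun y => (⟨y - (y - σ y) / (w - σ w) * w, hα y⟩, ⟨(y - σ y) / (w - σ w), hβ y⟩)
      invFun := fun p => p.1.1 + p.2.1 * w
      left_inv := ?_
      right_inv := ?_ }
  · intro y
    simp
  · rintro ⟨⟨a, ha⟩, ⟨b, hb⟩⟩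
    have ha' : σ a = a := ha
    have hb' : σ b = b := hb
    have h1 : (a + b * w - σ (a + b * w)) / (w - σ w) = b := by
      rw [map_add, map_mul, ha', hb']
      field_simp
      ring
    refine Prod.ext (Subtype.ext ?_) (Subtype.ext ?_)
    · change a + b * w - (a + b * w - σ (a + b * w)) / (w - σ w) * w = a
      rw [h1]
      ring
    · exact h1

section phi

variable {e : F} (he : e + σ e = 0) (h0 : e ≠ 0)

/-- the matrix of `phi` -/
def phiM (e : F) (A : SpecialLinearGroup (Fin 2) (kf σ)) : Matrix (Fin 3) (Fin 3) F :=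
  !![(A.1 0 0 : F), 0, e * (A.1 0 1 : F); 0, 1, 0; (A.1 1 0 : F) * e⁻¹, 0, (A.1 1 1 : F)]

theorem det2 (A : SpecialLinearGroup (Fin 2) (kf σ)) :
    (A.1 0 0 : F) * (A.1 1 1 : F) - (A.1 0 1 : F) * (A.1 1 0 : F) = 1 := by
  have h1 := A.2
  rw [Matrix.det_fin_two] at h1
  exact_mod_cast congrArg (Subtype.val) h1

/-- `SL_2(q)` in `SU_3(q)` -/
def phi (he : e + σ e = 0) (h0 : e ≠ 0) : SpecialLinearGroup (Fin 2) (kf σ) →* SUJ σ where
  toFun A := ⟨⟨phiM e A, by
    have h1 := det2 A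
    rw [phiM, Matrix.det_fin_three]
    simp
    field_simp
    linear_combination h1⟩, by
    have h1 := det2 A
    have hse : σ e = -e := by linear_combination he
    have s00 : σ (A.1 0 0 : F) = A.1 0 0 := (A.1 0 0).2
    have s01 : σ (A.1 0 1 : F) = A.1 0 1 := (A.1 0 1).2
    have s10 : σ (A.1 1 0 : F) = A.1 1 0 := (A.1 1 0).2
    have s11 : σ (A.1 1 1 : F) = A.1 1 1 := (A.1 1 1).2
    change (phiM e A)ᵀ * Jm F * (phiM e A).map σ = Jm F
    ext i j
    fin_cases i <;> fin_cases j <;>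
      simp [phiM, Jm, Matrix.mul_apply, Fin.sum_univ_three, hse, s00, s01, s10, s11]
    all_goals field_simp
    all_goals try linear_combination h1
    all_goals ring⟩
  map_one' := by
    apply ext_mt
    change phiM e 1 = 1
    ext i j
    fin_cases i <;> fin_cases j <;> simp [phiM]
  map_mul' := by
    intro A B
    apply ext_mt
    change phiM e (A * B) = phiM e A * phiM e B
    ext i j
    fin_cases i <;> fin_cases j <;>
      simp [phiM, Matrix.mul_apply, Fin.sum_univ_three, Fin.sum_univ_two]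
    all_goals field_simp

theorem phi_val (A : SpecialLinearGroup (Fin 2) (kf σ)) : (phi he h0 A).1.1 = phiM e A := rfl

theorem phi_injective : Function.Injective (phi (σ := σ) he h0) := by
  intro A B h
  have h1 : phiM e A = phiM e B := congrArg (fun x : SUJ σ => x.1.1) h
  ext i j
  fin_cases i <;> fin_cases j
  · simpa [phiM] using congrFun (congrFun h1 0) 0
  · simpa [phiM, h0] using congrFun (congrFun h1 0) 2
  · simpa [phiM, h0] using congrFun (congrFun h1 2) 0
  · simpa [phiM] using congrFun (congrFun h1 2) 2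

theorem phi_comm (A : SpecialLinearGroup (Fin 2) (kf σ)) : phi he h0 A * t0 σ = t0 σ * phi he h0 A := by
  apply ext_mt
  rw [mt_mul, mt_mul, phi_val, t0_val]
  ext i j
  fin_cases i <;> fin_cases j <;> simp [phiM, dmat, Matrix.mul_apply, Fin.sum_univ_three]

/-- the elements fixing `e2` -/
theorem exists_phi (hσ : ∀ x, σ (σ x) = x) {x : SUJ σ} (hx : x.1.1 *ᵥ e2 F = e2 F) : ∃ A, phi he h0 A = x := by
  have h01 : x.1.1 0 1 = 0 := by
    have := congrFun hx 0
    simpa [e2, Matrix.mulVec, dotProduct, Fin.sum_univ_three] using this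
  have h11 : x.1.1 1 1 = 1 := by
    have := congrFun hx 1
    simpa [e2, Matrix.mulVec, dotProduct, Fin.sum_univ_three] using this
  have h21 : x.1.1 2 1 = 0 := by
    have := congrFun hx 2
    simpa [e2, Matrix.mulVec, dotProduct, Fin.sum_univ_three] using this
  have h10 : x.1.1 1 0 = 0 := by
    have hE := entry_of_mem_SUJ x.2 0 1
    rw [h01, h11, h21, show Jm F 0 1 = 0 by simp [Jm], map_zero, map_one] at hE
    linear_combination hE
  have h12 : x.1.1 1 2 = 0 := by
    have hE := entry_of_mem_SUJ x.2 2 1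
    rw [h01, h11, h21, show Jm F 2 1 = 0 by simp [Jm], map_zero, map_one] at hE
    linear_combination hE
  have hd : x.1.1.det = 1 := x.1.2
  rw [Matrix.det_fin_three, h01, h11, h21, h10, h12] at hd
  have E00 := entry_of_mem_SUJ x.2 0 0
  have E22 := entry_of_mem_SUJ x.2 2 2
  have E02 := entry_of_mem_SUJ x.2 0 2
  rw [h10, show Jm F 0 0 = 0 by simp [Jm]] at E00
  rw [h12, show Jm F 2 2 = 0 by simp [Jm]] at E22
  rw [h10, h12, show Jm F 0 2 = 1 by simp [Jm]] at E02
  have E02' := congrArg σ E02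
  simp only [map_add, map_mul, map_one, map_zero, hσ, mul_zero, zero_mul, add_zero] at E00 E22 E02 E02'
  have hse : σ e = -e := by linear_combination he
  have s22 : σ (x.1.1 2 2) = x.1.1 2 2 := by
    linear_combination (-σ (x.1.1 2 2)) * hd + x.1.1 2 2 * E02 - x.1.1 2 0 * E22
  have s00 : σ (x.1.1 0 0) = x.1.1 0 0 := by
    linear_combination (-σ (x.1.1 0 0)) * hd + x.1.1 0 0 * E02' - x.1.1 0 2 * E00
  have s20 : σ (x.1.1 2 0) = -x.1.1 2 0 := by
    linear_combination (-σ (x.1.1 2 0)) * hd - x.1.1 2 0 * E02' + x.1.1 2 2 * E00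
  have s02 : σ (x.1.1 0 2) = -x.1.1 0 2 := by
    linear_combination (-σ (x.1.1 0 2)) * hd - x.1.1 0 2 * E02 + x.1.1 0 0 * E22
  let A : Matrix (Fin 2) (Fin 2) (kf σ) := !![⟨x.1.1 0 0, s00⟩, ⟨x.1.1 0 2 * e⁻¹, by
    rw [mem_kf, map_mul, map_inv₀, hse, s02, inv_neg]
    ring⟩; ⟨x.1.1 2 0 * e, by
    rw [mem_kf, map_mul, hse, s20]
    ring⟩, ⟨x.1.1 2 2, s22⟩]
  have hA : A.det = 1 := by
    rw [Matrix.det_fin_two]
    apply Subtype.ext
    change x.1.1 0 0 * x.1.1 2 2 - x.1.1 0 2 * e⁻¹ * (x.1.1 2 0 * e) = 1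
    field_simp
    linear_combination hd
  refine ⟨⟨A, hA⟩, ?_⟩
  apply ext_mt
  change phiM e (⟨A, hA⟩ : SpecialLinearGroup (Fin 2) (kf σ)) = x.1.1
  ext i j
  fin_cases i <;> fin_cases j <;> simp [phiM, A, h01, h11, h21, h10, h12]
  all_goals field_simp

end phi

/-! ### the class of `t0` -/

theorem comm_of_eig {x : SUJ σ} {l : F} (hx : x.1.1 *ᵥ e2 F = l • e2 F) : x * t0 σ = t0 σ * x := by
  have h01 : x.1.1 0 1 = 0 := by
    have := congrFun hx 0
    simpa [e2, Matrix.mulVec, dotProduct, Fin.sum_univ_three] using this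
  have h21 : x.1.1 2 1 = 0 := by
    have := congrFun hx 2
    simpa [e2, Matrix.mulVec, dotProduct, Fin.sum_univ_three] using this
  have h11 : x.1.1 1 1 ≠ 0 := by
    intro h
    have hd : x.1.1.det = 1 := x.1.2
    rw [Matrix.det_fin_three, h01, h21, h] at hd
    simp at hd
  have h11' : σ (x.1.1 1 1) ≠ 0 := (map_ne_zero σ).2 h11
  have h10 : x.1.1 1 0 = 0 := by
    have hE := entry_of_mem_SUJ x.2 0 1
    rw [h01, h21, show Jm F 0 1 = 0 by simp [Jm], map_zero, mul_zero, mul_zero, add_zero, zero_add, mul_eq_zero] at hE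
    exact hE.resolve_right h11'
  have h12 : x.1.1 1 2 = 0 := by
    have hE := entry_of_mem_SUJ x.2 2 1
    rw [h01, h21, show Jm F 2 1 = 0 by simp [Jm], map_zero, mul_zero, mul_zero, add_zero, zero_add, mul_eq_zero] at hE
    exact hE.resolve_right h11'
  apply ext_mt
  rw [mt_mul, mt_mul, t0_val]
  ext i j
  fin_cases i <;> fin_cases j <;> simp [dmat, Matrix.mul_apply, Fin.sum_univ_three, h01, h21, h10, h12]

theorem e2_ne : e2 F ≠ 0 := fun h => by
  have := congrFun h 1
  simp [e2] at this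

theorem mulVec_ne {x : SUJ σ} {v : Fin 3 → F} (hv : v ≠ 0) : x.1.1 *ᵥ v ≠ 0 := by
  intro h
  apply hv
  have h1 := mulVec_inv h
  rw [Matrix.mulVec_zero] at h1
  exact h1.symm

theorem index_cent [Fintype F] {q : ℕ} (hF : Fintype.card F = q ^ 2) (g : SUJ σ) :
    (Subgroup.centralizer ({g * t0 σ * g⁻¹} : Set (SUJ σ))).index ≤ q ^ 4 + q ^ 2 + 1 := by
  have hcard : Nat.card (ℙ F (Fin 3 → F)) = q ^ 4 + q ^ 2 + 1 := by
    have h1 := Projectivization.card_of_finrank F (Fin 3 → F) (n := 3) (by simp)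
    rw [h1, Nat.card_eq_fintype_card, hF]
    simp [Finset.sum_range_succ]
    ring
  rw [← hcard, Subgroup.index]
  let f : SUJ σ ⧸ Subgroup.centralizer ({g * t0 σ * g⁻¹} : Set (SUJ σ)) → ℙ F (Fin 3 → F) := fun c =>
    Projectivization.mk F ((c.out * g).1.1 *ᵥ e2 F) (mulVec_ne e2_ne)
  refine Nat.card_le_card_of_injective f ?_
  intro a b hab
  obtain ⟨l, hl⟩ := (Projectivization.mk_eq_mk_iff' F _ _ (mulVec_ne e2_ne) (mulVec_ne e2_ne)).1 hab
  have h2 : (g⁻¹ * (b.out⁻¹ * a.out) * g).1.1 *ᵥ e2 F = l • e2 F := by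
    have h3 : g⁻¹ * (b.out⁻¹ * a.out) * g = (b.out * g)⁻¹ * (a.out * g) := by group
    have h4 : (a.out * g).1.1 *ᵥ e2 F = l • ((b.out * g).1.1 *ᵥ e2 F) := hl.symm
    rw [h3, mulVec_mt, h4, Matrix.mulVec_smul, mulVec_inv rfl]
  have h3 := comm_of_eig h2
  have h4 : b.out⁻¹ * a.out ∈ Subgroup.centralizer ({g * t0 σ * g⁻¹} : Set (SUJ σ)) := by
    rw [Subgroup.mem_centralizer_singleton_iff]
    calc b.out⁻¹ * a.out * (g * t0 σ * g⁻¹) = g * (g⁻¹ * (b.out⁻¹ * a.out) * g * t0 σ) * g⁻¹ := by group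
      _ = g * (t0 σ * (g⁻¹ * (b.out⁻¹ * a.out) * g)) * g⁻¹ := by rw [h3]
      _ = g * t0 σ * g⁻¹ * (b.out⁻¹ * a.out) := by group
  have h5 := QuotientGroup.eq.2 h4
  rw [QuotientGroup.out_eq', QuotientGroup.out_eq'] at h5
  exact h5.symm

end Cfsg.Agent.H66.IFU
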